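import Mathlib
import Cfsg.Agent.Lib.Helper22.Iso.Defs
import Cfsg.Agent.Lib.Helper22.Comp
import Cfsg.Agent.Lib.Helper48.PMinimal

/-!
# ISO (S3044 / S3045) package ABS-A3

`X` not nilpotent with `E(X) = X`: the group `Sg` is transitive on the components of `X`.
-/

set_option autoImplicit false

namespace Cfsg.Agent.Lib.Helper91.Iso

open Cfsg.Agent.Lib.Helper22.Iso Cfsg.Agent.Lib.Helper22
open scoped commutatorElement

universe u

theorem normal_iSup_of_normal {X : Type u} [Group X] {ι : Sort*} (f : ι → Subgroup X)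
    (h : ∀ i, (f i).Normal) : (⨆ i, f i).Normal := by
  rw [Subgroup.iSup_eq_closure]
  apply Cfsg.Agent.Lib.Helper48.closure_normal_of_conj
  intro g x hx
  obtain ⟨i, hi⟩ := Set.mem_iUnion.mp hx
  exact Set.mem_iUnion.mpr ⟨i, (h i).conj_mem x hi g⟩

theorem pkgAbsA3 : PkgAbsA3.{u} := by
  intro X Γ _ _ _ _ p _ σ Sg Qg Lg Lb Tb hA hnil hlay K₁ K₂ hK₁ hK₂
  have hnorm : ∀ K : Subgroup X, Cfsg.IsComponent K → K.Normal := by
    intro K hK
    have h := layer_le_normalizer_component hK
    rw [hlay, top_le_iff] at h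
    exact Subgroup.normalizer_eq_top_iff.mp h
  have hmap : ∀ (g : Γ) (K : Subgroup X), Cfsg.IsComponent K →
      Cfsg.IsComponent (K.map (σ g).toMonoidHom) := fun g K hK => isComponent_map_equiv (σ g) hK
  have hnc : ∀ K : Subgroup X, Cfsg.IsComponent K → ¬ K ≤ Subgroup.center X :=
    fun K hK => IsComponent.not_le_solvable hK
      (Group.isSolvable_of_comm (fun a b => Subtype.ext (Subgroup.mem_center_iff.mp b.2 a)))
  have hcomp : ∀ (g h : Γ) (K : Subgroup X),
      (K.map (σ h).toMonoidHom).map (σ g).toMonoidHom = K.map (σ (g * h)).toMonoidHom := by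
    intro g h K
    rw [Subgroup.map_map, map_mul]
    rfl
  have hone : ∀ K : Subgroup X, K.map (σ 1).toMonoidHom = K := by
    intro K
    rw [map_one]
    exact Subgroup.map_id K
  have hcomm : ∀ K K' : Subgroup X, Cfsg.IsComponent K → Cfsg.IsComponent K' → K ≠ K' →
      ∀ a ∈ K, ∀ b ∈ K', a * b = b * a := by
    intro K K' hK hK' hne a ha b hb
    have h := components_commute hK hK' hne
    have h1 : ⁅a, b⁆ ∈ (⁅K, K'⁆ : Subgroup X) := Subgroup.commutator_mem_commutator ha hb
    rw [h, Subgroup.mem_bot, commutatorElement_eq_one_iff_mul_comm] at h1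
    exact h1
  -- an element commuting with every component is central
  have hcent : ∀ z : X, (∀ K : Subgroup X, Cfsg.IsComponent K → ∀ b ∈ K, z * b = b * z) →
      z ∈ Subgroup.center X := by
    intro z hz
    have h1 : Cfsg.layer X ≤ Subgroup.centralizer {z} := by
      rw [layer_le_iff]
      intro K hK b hb
      rw [Subgroup.mem_centralizer_iff]
      intro y hy
      rw [Set.mem_singleton_iff] at hy
      subst hy
      exact hz K hK b hb
    rw [hlay] at h1
    rw [Subgroup.mem_center_iff]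
    intro g
    have h2 := h1 (Subgroup.mem_top g)
    rw [Subgroup.mem_centralizer_iff] at h2
    exact (h2 z rfl).symm
  -- orbit joins
  have horb : ∀ (A : Subgroup Γ) (K : Subgroup X), Cfsg.IsComponent K →
      (⨆ a : A, K.map (σ (a : Γ)).toMonoidHom).Normal ∧
      (∀ a ∈ A, ∀ x ∈ (⨆ a : A, K.map (σ (a : Γ)).toMonoidHom),
        σ a x ∈ (⨆ a : A, K.map (σ (a : Γ)).toMonoidHom)) ∧
      K ≤ ⨆ a : A, K.map (σ (a : Γ)).toMonoidHom := by
    intro A K hK
    refine ⟨normal_iSup_of_normal _ (fun a => hnorm _ (hmap _ _ hK)), ?_, ?_⟩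
    · intro a ha x hx
      have h1 : (⨆ a : A, K.map (σ (a : Γ)).toMonoidHom).map (σ a).toMonoidHom ≤
          ⨆ a : A, K.map (σ (a : Γ)).toMonoidHom := by
        rw [Subgroup.map_iSup]
        refine iSup_le fun a' => ?_
        rw [hcomp]
        exact le_iSup (fun a : A => K.map (σ (a : Γ)).toMonoidHom) ⟨a * a', A.mul_mem ha a'.2⟩
      exact h1 (Subgroup.mem_map_of_mem _ hx)
    · have h1 := le_iSup (fun a : A => K.map (σ (a : Γ)).toMonoidHom) ⟨1, A.one_mem⟩
      have h2 : K.map (σ ((⟨1, A.one_mem⟩ : A) : Γ)).toMonoidHom = K := hone K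
      exact h2.symm.le.trans h1
  -- (i) `Lg` is transitive on the components
  have htrans : ∀ K K' : Subgroup X, Cfsg.IsComponent K → Cfsg.IsComponent K' →
      ∃ l ∈ Lg, K' = K.map (σ l).toMonoidHom := by
    intro K K' hK hK'
    by_contra hne
    push Not at hne
    obtain ⟨hNn, hNinv, hKN⟩ := horb Lg K hK
    have hNtop : (⨆ l : Lg, K.map (σ (l : Γ)).toMonoidHom) = ⊤ := by
      by_contra hne'
      exact hnc K hK (hKN.trans (hA.key _ hNn hNinv hne').1)
    apply hnc K' hK'
    intro z hz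
    have h1 : (⨆ l : Lg, K.map (σ (l : Γ)).toMonoidHom) ≤ Subgroup.centralizer {z} := by
      refine iSup_le fun l => ?_
      intro b hb
      rw [Subgroup.mem_centralizer_iff]
      intro y hy
      rw [Set.mem_singleton_iff] at hy
      subst hy
      exact hcomm K' _ hK' (hmap _ _ hK) (hne l l.2) y hz b hb
    rw [hNtop] at h1
    rw [Subgroup.mem_center_iff]
    intro g
    have h2 := h1 (Subgroup.mem_top g)
    rw [Subgroup.mem_centralizer_iff] at h2
    exact (h2 z rfl).symm
  -- (ii)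
  by_contra hne
  push Not at hne
  obtain ⟨hW1n, hW1i, hK1W⟩ := horb Sg K₁ hK₁
  obtain ⟨hW2n, hW2i, hK2W⟩ := horb Sg K₂ hK₂
  have hdist : ∀ s s' : Sg, K₁.map (σ (s : Γ)).toMonoidHom ≠ K₂.map (σ (s' : Γ)).toMonoidHom := by
    intro s s' h
    apply hne ((s' : Γ)⁻¹ * s) (Sg.mul_mem (Sg.inv_mem s'.2) s.2)
    have h1 := congrArg (Subgroup.map (σ ((s' : Γ)⁻¹)).toMonoidHom) h
    rw [hcomp, hcomp, inv_mul_cancel, hone] at h1
    exact h1.symm
  have hcen : (⨆ s : Sg, K₁.map (σ (s : Γ)).toMonoidHom) ⊓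
      (⨆ s : Sg, K₂.map (σ (s : Γ)).toMonoidHom) ≤ Subgroup.center X := by
    intro z hz
    apply hcent
    intro K hK b hb
    by_cases hKo : ∃ s : Sg, K = K₁.map (σ (s : Γ)).toMonoidHom
    · obtain ⟨s, rfl⟩ := hKo
      have h1 : (⨆ s : Sg, K₂.map (σ (s : Γ)).toMonoidHom) ≤ Subgroup.centralizer {b} := by
        refine iSup_le fun s' => ?_
        intro c hc
        rw [Subgroup.mem_centralizer_iff]
        intro y hy
        rw [Set.mem_singleton_iff] at hy
        subst hy
        exact hcomm _ _ (hmap _ _ hK₁) (hmap _ _ hK₂) (hdist s s') y hb c hc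
      have h2 := h1 hz.2
      rw [Subgroup.mem_centralizer_iff] at h2
      exact (h2 b rfl).symm
    · push Not at hKo
      have h1 : (⨆ s : Sg, K₁.map (σ (s : Γ)).toMonoidHom) ≤ Subgroup.centralizer {b} := by
        refine iSup_le fun s => ?_
        intro c hc
        rw [Subgroup.mem_centralizer_iff]
        intro y hy
        rw [Set.mem_singleton_iff] at hy
        subst hy
        exact hcomm K _ hK (hmap _ _ hK₁) (hKo s) y hb c hc
      have h2 := h1 hz.1
      rw [Subgroup.mem_centralizer_iff] at h2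
      exact (h2 b rfl).symm
  have hfix : ∃ K₀ : Subgroup X, Cfsg.IsComponent K₀ ∧ ∀ q ∈ Qg, ∀ x ∈ K₀, σ q x = x := by
    rcases hA.invn _ hW1n hW1i with h1 | h1
    · rcases hA.invn _ hW2n hW2i with h2 | h2
      · exfalso
        apply hnil
        have hTc : Tb ≤ Subgroup.center X := fun x hx => hcen ⟨h1 hx, h2 hx⟩
        have hab := hA.Tnc hTc
        have hc : Subgroup.center X = ⊤ :=
          (Subgroup.eq_top_iff' _).mpr (fun z => Subgroup.mem_center_iff.mpr (fun g => hab g z))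
        exact ⟨⟨1, by rw [Subgroup.upperCentralSeries_one]; exact hc⟩⟩
      · exact ⟨K₂, hK₂, fun q hq x hx => h2 q hq x (hK2W hx)⟩
    · exact ⟨K₁, hK₁, fun q hq x hx => h1 q hq x (hK1W hx)⟩
  obtain ⟨K₀, hK₀, hfix₀⟩ := hfix
  apply hA.nc
  intro q hq x
  have h1 : Cfsg.layer X ≤ MonoidHom.eqLocus (σ q).toMonoidHom (MonoidHom.id X) := by
    rw [layer_le_iff]
    intro K hK
    obtain ⟨l, hl, rfl⟩ := htrans K₀ K hK₀ hK
    rintro _ ⟨y, hy, rfl⟩
    have hq' : l⁻¹ * q * l ∈ Qg := by
      have h := hA.LQ l⁻¹ (Lg.inv_mem hl) q hq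
      rwa [inv_inv] at h
    have h2 := hfix₀ _ hq' y hy
    have h3 : σ q (σ l y) = σ l (σ (l⁻¹ * q * l) y) := by
      rw [← MulAut.mul_apply, ← MulAut.mul_apply, ← map_mul, ← map_mul]
      congr 2
      group
    show σ q (σ l y) = σ l y
    rw [h3, h2]
  rw [hlay] at h1
  exact h1 (Subgroup.mem_top x)

end Cfsg.Agent.Lib.Helper91.Iso
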