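import Mathlib
import Cfsg.Agent.Lib.Helper22.Iso.Defs
import Cfsg.Agent.Lib.Helper48.PMinimal

/-!
# ISO (S3044 / S3045) package PMIN

A normal subgroup `N` of a `p`-minimal group `P` not containing `O^p(P)` meets a Sylow
`p`-subgroup inside `O_p(P)`.
-/

set_option autoImplicit false

namespace Cfsg.Agent.Lib.Helper91.Iso

open Cfsg.Agent.Lib.Helper22.Iso

universe u

theorem pkgPmin : PkgPmin.{u} := by
  intro G _ _ p _ S P hSP hPmin N hNP hPN hT
  obtain ⟨-, M, ⟨hM, hSM⟩, -⟩ := hPmin (S.subtype hSP)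
  have hN' : (N.subgroupOf P).Normal :=
    (Subgroup.normal_subgroupOf_iff_le_normalizer hNP).mpr hPN
  rcases Cfsg.Agent.Lib.Helper48.pmin_normal_dichotomy hPmin (S.subtype hSP) M hM hSM _ hN'
    with h | h
  · exfalso
    apply hT
    have h1 : (Cfsg.pResidual p ↥P).map P.subtype ≤ (N.subgroupOf P).map P.subtype :=
      Subgroup.map_mono h
    rw [Subgroup.subgroupOf_map_subtype] at h1
    exact h1.trans inf_le_left
  · have h2 := Cfsg.Agent.Lib.Helper48.pmin_core_inf_sylow_le hPmin (S.subtype hSP) M hM hSM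
    intro x hx
    have hxP : x ∈ P := hSP hx.2
    have hxS : (⟨x, hxP⟩ : ↥P) ∈ ((S.subtype hSP : Sylow p ↥P) : Subgroup ↥P) := by
      rw [Sylow.coe_subtype]
      exact hx.2
    have hxN : (⟨x, hxP⟩ : ↥P) ∈ N.subgroupOf P := hx.1
    exact ⟨⟨x, hxP⟩, h2 ⟨hxS, h hxN⟩, rfl⟩

end Cfsg.Agent.Lib.Helper91.Iso
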