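import Mathlib
import Cfsg.Agent.Lib.Helper22.Iso.Defs
import Cfsg.Agent.Lib.Helper48.PMinimal
import Cfsg.Agent.Lib.Helper55.Cores
import Cfsg.Agent.Lib.Helper23.Transport

/-!
# ISO (S3044 / S3045) package YT

`Y = ⟨T^G⟩`, `T = O^p(P)`, `S ≤ P`: if `Y ≤ T · O_p(Y)` then `T = Y`.
-/

set_option autoImplicit false

namespace Cfsg.Agent.Lib.Helper91.Iso

open Cfsg.Agent.Lib.Helper22.Iso

universe u

/-- powers of a product `t * r`, `t ∈ T`, `r` normalising `T`. -/
theorem pow_mul_mem_of_normalizes {G : Type u} [Group G] (T : Subgroup G) (t r : G) (ht : t ∈ T)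
    (hr : ∀ x ∈ T, r * x * r⁻¹ ∈ T) (n : ℕ) : ∃ t' ∈ T, (t * r) ^ n = t' * r ^ n := by
  have hrn : ∀ n : ℕ, ∀ x ∈ T, r ^ n * x * (r ^ n)⁻¹ ∈ T := by
    intro n
    induction n with
    | zero => intro x hx; simpa using hx
    | succ k ih =>
      intro x hx
      have e : r ^ (k + 1) * x * (r ^ (k + 1))⁻¹ = r ^ k * (r * x * r⁻¹) * (r ^ k)⁻¹ := by
        rw [pow_succ]; group
      rw [e]
      exact ih _ (hr x hx)
  induction n with
  | zero => exact ⟨1, T.one_mem, by simp⟩
  | succ k ih =>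
    obtain ⟨t', ht', h⟩ := ih
    refine ⟨t' * (r ^ k * t * (r ^ k)⁻¹), T.mul_mem ht' (hrn k t ht), ?_⟩
    rw [pow_succ, h, pow_succ]
    group

theorem pkgYT : PkgYT.{u} := by
  intro G _ _ p _ S P Y hSP hY hYle
  have hp : p.Prime := Fact.out
  obtain ⟨T, hT⟩ : ∃ T : Subgroup G, T = resid p P := ⟨_, rfl⟩
  rw [← hT] at hY hYle ⊢
  have hYn : Y.Normal := by rw [hY]; exact Subgroup.normalClosure_normal
  have hTY : T ≤ Y := by rw [hY]; exact Subgroup.le_normalClosure
  -- `R = O_p(Y)` is a normal `p`-subgroup of `G`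
  have hRn : (opOf p Y).Normal := by
    have hYn' := hYn
    have : (Cfsg.pCore p ↥Y).Characteristic :=
      Cfsg.Agent.Lib.Helper23.pCore_characteristic p ↥Y
    exact ConjAct.normal_of_characteristic_of_normal
  have hRp : IsPGroup p (opOf p Y) := (Cfsg.Agent.Lib.Helper55.pCore_isPGroup p ↥Y).map _
  have hRS : opOf p Y ≤ (S : Subgroup G) := hRp.le_sylow_of_normal S
  -- `P` normalises `T`
  have hPT : ∀ x ∈ P, ∀ y ∈ T, x * y * x⁻¹ ∈ T := by
    intro x hx y hy
    rw [hT] at hy ⊢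
    obtain ⟨y', hy', rfl⟩ := hy
    have hn := Cfsg.Agent.Lib.Helper48.pResidual_normal' p ↥P
    exact ⟨⟨x, hx⟩ * y' * ⟨x, hx⟩⁻¹, hn.conj_mem y' hy' ⟨x, hx⟩, rfl⟩
  -- every `p'`-element of `T ⊔ R` lies in `T`
  have key : ∀ y ∈ T ⊔ opOf p Y, Nat.Coprime (orderOf y) p → y ∈ T := by
    intro y hy hcop
    have hRn' := hRn
    have hy' : y ∈ ((T ⊔ opOf p Y : Subgroup G) : Set G) := hy
    rw [Subgroup.mul_normal] at hy'
    obtain ⟨t, ht, r, hr, rfl⟩ := Set.mem_mul.mp hy'
    obtain ⟨k, hk⟩ := hRp ⟨r, hr⟩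
    have hrk : r ^ (p ^ k) = 1 := by
      have := congrArg Subtype.val hk
      simpa using this
    obtain ⟨t', ht', h⟩ := pow_mul_mem_of_normalizes T t r ht
      (fun x hx => hPT r (hSP (hRS hr)) x hx) (p ^ k)
    rw [hrk, mul_one] at h
    have hmem : (t * r) ^ (p ^ k) ∈ T := by rw [h]; exact ht'
    have hc : Nat.Coprime (p ^ k) (orderOf (t * r)) := (Nat.Coprime.pow_right k hcop).symm
    obtain ⟨m, hm⟩ := exists_pow_eq_self_of_coprime hc
    rw [← hm]
    exact T.pow_mem hmem m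
  -- `Y` is generated by its `p'`-elements
  have hYT : Y ≤ T := by
    have hAn : (Subgroup.closure {x : G | x ∈ Y ∧ Nat.Coprime (orderOf x) p}).Normal := by
      apply Cfsg.Agent.Lib.Helper48.closure_normal_of_conj
      intro g x hx
      refine ⟨hYn.conj_mem x hx.1 g, ?_⟩
      have e : orderOf (g * x * g⁻¹) = orderOf x :=
        orderOf_injective (MulAut.conj g).toMonoidHom (MulAut.conj g).injective x
      rw [e]
      exact hx.2
    have hTA : T ≤ Subgroup.closure {x : G | x ∈ Y ∧ Nat.Coprime (orderOf x) p} := by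
      have e : T = (Subgroup.closure {g : ↥P | Nat.Coprime (orderOf g) p}).map P.subtype := hT
      rw [e, MonoidHom.map_closure, Subgroup.closure_le]
      rintro _ ⟨g, hg, rfl⟩
      apply Subgroup.subset_closure
      refine ⟨hTY ?_, ?_⟩
      · rw [e]
        exact Subgroup.mem_map_of_mem _ (Subgroup.subset_closure hg)
      · have e2 : orderOf (P.subtype g) = orderOf g :=
          orderOf_injective P.subtype P.subtype_injective g
        rw [e2]
        exact hg
    have hAT : Subgroup.closure {x : G | x ∈ Y ∧ Nat.Coprime (orderOf x) p} ≤ T := by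
      rw [Subgroup.closure_le]
      intro x hx
      exact key x (hYle hx.1) hx.2
    have h1 : Y ≤ Subgroup.closure {x : G | x ∈ Y ∧ Nat.Coprime (orderOf x) p} := by
      have hAn' := hAn
      have h2 : Subgroup.normalClosure (T : Set G) ≤
          Subgroup.closure {x : G | x ∈ Y ∧ Nat.Coprime (orderOf x) p} :=
        Subgroup.normalClosure_le_normal hTA
      exact hY.le.trans h2
    exact h1.trans hAT
  exact le_antisymm hTY hYT

end Cfsg.Agent.Lib.Helper91.Iso
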